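import Cfsg.Agent.Lib.Helper51.TIH.Defs

/-!
# TIH (S4118) package [HALL]
-/

set_option autoImplicit false

namespace Cfsg.Agent.Lib.Helper84.TIH

open Cfsg.Agent.Lib.Helper51.TIH

universe u

theorem pkgHall : PkgHall.{u} := by
  intro G _ _ H hTI hcop
  classical
  by_contra hnot
  obtain ⟨p, hp, hpH, hpi⟩ := Nat.Prime.not_coprime_iff_dvd.mp hnot
  haveI : Fact p.Prime := ⟨hp⟩
  have hH0 : Nat.card H ≠ 0 := Nat.card_pos.ne'
  set n := (Nat.card H).factorization p with hn
  have hn1 : 0 < n := Nat.Prime.factorization_pos_of_dvd hp hH0 hpH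
  let P0 : Sylow p H := default
  let T : Subgroup G := (P0 : Subgroup H).map H.subtype
  have hTH : T ≤ H := by
    rintro _ ⟨y, -, rfl⟩
    exact y.2
  have hTcard : Nat.card T = p ^ n := by
    show Nat.card ((P0 : Subgroup H).map H.subtype) = p ^ n
    rw [Subgroup.card_subtype, Sylow.card_eq_multiplicity]
  -- `p ^ (n+1)` divides the order of `G`
  have hdvdG : p ^ (n + 1) ∣ Nat.card G := by
    rw [← Subgroup.card_mul_index H, pow_succ]
    exact mul_dvd_mul (Nat.ordProj_dvd _ _) hpi
  have hdvdN := Sylow.prime_pow_dvd_card_normalizer hdvdG hTcard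
  -- the normalizer of `T` lies in the normalizer of `H`
  have hTne : T ≠ ⊥ := by
    intro h
    rw [h, Subgroup.card_bot] at hTcard
    have : 1 < p ^ n := Nat.one_lt_pow hn1.ne' hp.one_lt
    omega
  obtain ⟨⟨x, hxT⟩, hx1⟩ := (Subgroup.ne_bot_iff_exists_ne_one).mp hTne
  have hx1' : x ≠ 1 := fun h => hx1 (Subtype.ext h)
  have hle : Subgroup.normalizer (T : Set G) ≤ Subgroup.normalizer (H : Set G) := by
    intro g hg
    by_contra hgN
    apply hx1'
    apply hTI g hgN x (hTH hxT)
    exact hTH ((Subgroup.mem_normalizer_iff.mp hg x).mp hxT)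
  have hdvdN' : p ^ (n + 1) ∣ Nat.card (Subgroup.normalizer (H : Set G)) :=
    hdvdN.trans (Subgroup.card_dvd_of_le hle)
  -- the order of the normalizer of `H`
  have hNcard : Nat.card (Subgroup.normalizer (H : Set G)) =
      Nat.card H * (H.subgroupOf (Subgroup.normalizer (H : Set G))).index := by
    rw [← Subgroup.card_mul_index (H.subgroupOf (Subgroup.normalizer (H : Set G)))]
    congr 1
    exact Nat.card_congr (Subgroup.subgroupOfEquivOfLe Subgroup.le_normalizer).toEquiv
  rw [hNcard] at hdvdN'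
  have hpc : Nat.Coprime p (H.subgroupOf (Subgroup.normalizer (H : Set G))).index :=
    Nat.Coprime.coprime_dvd_left hpH hcop
  have hdvdH : p ^ (n + 1) ∣ Nat.card H :=
    Nat.Coprime.dvd_of_dvd_mul_right (Nat.Coprime.pow_left _ hpc) hdvdN'
  exact Nat.pow_succ_factorization_not_dvd hH0 hp hdvdH

end Cfsg.Agent.Lib.Helper84.TIH
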